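/-
Counting solutions of `g ^ n = 1`: products, powers and split extensions with abelian kernel.
-/
import Mathlib

set_option autoImplicit false

namespace CfsgLib.OrdType

open Finset

/-- The number of solutions of `g ^ n = 1`. -/
noncomputable def e (G : Type*) [Monoid G] (n : ℕ) : ℕ := Nat.card {g : G // g ^ n = 1}

theorem e_prod (G H : Type*) [Monoid G] [Monoid H] (n : ℕ) : e (G × H) n = e G n * e H n := by
  unfold e
  rw [← Nat.card_prod]
  refine Nat.card_congr ⟨fun x => (⟨x.1.1, ?_⟩, ⟨x.1.2, ?_⟩), fun y => ⟨(y.1.1, y.2.1), ?_⟩,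
    fun _ => rfl, fun _ => rfl⟩
  · simpa using congrArg Prod.fst x.2
  · simpa using congrArg Prod.snd x.2
  · ext
    · simpa using y.1.2
    · simpa using y.2.2

theorem e_gcd (G : Type*) [Monoid G] {E : ℕ} (hE : ∀ g : G, g ^ E = 1) (n : ℕ) :
    e G n = e G (Nat.gcd n E) := by
  unfold e
  refine Nat.card_congr (Equiv.subtypeEquivRight fun g => ?_)
  rw [← orderOf_dvd_iff_pow_eq_one, ← orderOf_dvd_iff_pow_eq_one, Nat.dvd_gcd_iff]
  exact ⟨fun h => ⟨h, orderOf_dvd_of_pow_eq_one (hE g)⟩, fun h => h.1⟩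

theorem e_eq_sum (G : Type*) [Monoid G] [Fintype G] [DecidableEq G] (n : ℕ) :
    e G n = ∑ g : G, if g ^ n = 1 then 1 else 0 := by
  unfold e
  rw [Nat.card_eq_fintype_card, Fintype.card_subtype, Finset.card_filter]

/-- Counting through a table of values. -/
theorem card_eq_countP {G : Type*} [Fintype G] (o : G → ℕ) (s : Multiset ℕ)
    (hs : (univ : Finset G).val.map o = s) (P : ℕ → Prop) [DecidablePred P] :
    Nat.card {g : G // P (o g)} = s.countP P := by
  classical
  rw [← hs, Multiset.countP_map, Nat.card_eq_fintype_card, Fintype.card_subtype]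
  rfl

/-- An action of a group on an abelian group, as plain data. -/
structure Act (V L : Type) [AddCommGroup V] [Group L] where
  act : L → V → V
  act_one : ∀ v, act 1 v = v
  act_mul : ∀ a b v, act (a * b) v = act a (act b v)
  act_add : ∀ a v w, act a (v + w) = act a v + act a w

/-- The split extension defined by an action. -/
@[ext] structure SD {V L : Type} [AddCommGroup V] [Group L] (A : Act V L) where
  v : V
  r : L
  deriving DecidableEq

section SD

variable {V L : Type} [AddCommGroup V] [Group L] {A : Act V L}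

theorem Act.act_zero (A : Act V L) (a : L) : A.act a 0 = 0 := by
  have := A.act_add a 0 0
  rw [add_zero] at this
  exact left_eq_add.mp this

theorem Act.act_neg (A : Act V L) (a : L) (v : V) : A.act a (-v) = -A.act a v := by
  have := A.act_add a v (-v)
  rw [add_neg_cancel, A.act_zero] at this
  exact (neg_eq_of_add_eq_zero_right this.symm).symm

instance : Mul (SD A) := ⟨fun x y => ⟨x.v + A.act x.r y.v, x.r * y.r⟩⟩
instance : One (SD A) := ⟨⟨0, 1⟩⟩
instance : Inv (SD A) := ⟨fun x => ⟨-A.act x.r⁻¹ x.v, x.r⁻¹⟩⟩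

theorem SD.mul_v (x y : SD A) : (x * y).v = x.v + A.act x.r y.v := rfl
theorem SD.mul_r (x y : SD A) : (x * y).r = x.r * y.r := rfl
theorem SD.one_v : (1 : SD A).v = 0 := rfl
theorem SD.one_r : (1 : SD A).r = 1 := rfl
theorem SD.inv_v (x : SD A) : (x⁻¹).v = -A.act x.r⁻¹ x.v := rfl
theorem SD.inv_r (x : SD A) : (x⁻¹).r = x.r⁻¹ := rfl

instance : Group (SD A) :=
  Group.ofLeftAxioms
    (fun x y z => by
      ext
      · simp only [SD.mul_v, SD.mul_r, A.act_add, A.act_mul, add_assoc]
      · simp only [SD.mul_r, mul_assoc])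
    (fun x => by
      ext
      · simp only [SD.mul_v, SD.one_v, SD.one_r, A.act_one, zero_add]
      · simp only [SD.mul_r, SD.one_r, one_mul])
    (fun x => by
      ext
      · simp only [SD.mul_v, SD.inv_v, SD.inv_r, SD.one_v, neg_add_cancel]
      · simp only [SD.mul_r, SD.inv_r, SD.one_r, inv_mul_cancel])

/-- The underlying set is a product. -/
def SD.equivProd (A : Act V L) : V × L ≃ SD A :=
  ⟨fun x => ⟨x.1, x.2⟩, fun x => (x.v, x.r), fun _ => rfl, fun _ => rfl⟩

instance [Fintype V] [Fintype L] : Fintype (SD A) := Fintype.ofEquiv _ (SD.equivProd A)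

/-- The projection onto the acting group. -/
def SD.proj (A : Act V L) : SD A →* L := ⟨⟨SD.r, rfl⟩, fun _ _ => rfl⟩

/-- The inclusion of the kernel. -/
def SD.incl (A : Act V L) : Multiplicative V →* SD A :=
  MonoidHom.mk' (fun v => ⟨v.toAdd, 1⟩) fun a b => by
    ext
    · simp only [SD.mul_v, A.act_one, toAdd_mul]
    · simp only [SD.mul_r, mul_one]

instance [Group.IsSolvable L] : Group.IsSolvable (SD A) :=
  Group.isSolvable_of_ker_le_range (SD.incl A) (SD.proj A) fun x hx =>
    ⟨Multiplicative.ofAdd x.v, by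
      ext
      · rfl
      · exact (MonoidHom.mem_ker.mp hx).symm⟩

theorem SD.pow_r (x : SD A) (n : ℕ) : (x ^ n).r = x.r ^ n := map_pow (SD.proj A) x n

end SD

/-- A character with values `± 1`, written additively in `Bool`. -/
structure Chr (L : Type) [Group L] where
  χ : L → Bool
  mul : ∀ a b, χ (a * b) = xor (χ a) (χ b)

namespace Chr

variable {L : Type} [Group L]

theorem one (c : Chr L) : c.χ 1 = false := by
  have := c.mul 1 1
  rw [mul_one] at this
  revert this
  cases c.χ 1 <;> simp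

theorem even_of_pow_eq_one (c : Chr L) {l : L} (hl : c.χ l = true) {n : ℕ} (hn : l ^ n = 1) :
    Even n := by
  have key : ∀ m : ℕ, c.χ (l ^ m) = !decide (Even m) := by
    intro m
    induction m with
    | zero => simpa using c.one
    | succ m ih =>
      rw [pow_succ, c.mul, ih, hl]
      by_cases h : Even m <;> simp [Nat.even_add_one, h]
  have := key n
  rw [hn, c.one] at this
  simpa using this

/-- The trivial character. -/
def zero (L : Type) [Group L] : Chr L := ⟨fun _ => false, fun _ _ => rfl⟩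

/-- The product of two characters. -/
def add (c d : Chr L) : Chr L :=
  ⟨fun l => xor (c.χ l) (d.χ l), fun a b => by
    rw [c.mul, d.mul]
    cases c.χ a <;> cases c.χ b <;> cases d.χ a <;> cases d.χ b <;> rfl⟩

/-- Inflation along the first projection. -/
def fst (c : Chr L) (M : Type) [Group M] : Chr (L × M) := ⟨fun l => c.χ l.1, fun _ _ => c.mul _ _⟩

/-- Inflation along the second projection. -/
def snd (M : Type) [Group M] (c : Chr L) : Chr (M × L) := ⟨fun l => c.χ l.2, fun _ _ => c.mul _ _⟩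

/-- Inflation to a split extension. -/
def lift {V : Type} [AddCommGroup V] (c : Chr L) (A : Act V L) : Chr (SD A) :=
  ⟨fun l => c.χ l.r, fun _ _ => c.mul _ _⟩

/-- The action on `ZMod p` by the sign. -/
def act (c : Chr L) (p : ℕ) : Act (ZMod p) L where
  act l v := if c.χ l then -v else v
  act_one v := by simp [c.one]
  act_mul a b v := by
    rw [c.mul]
    cases c.χ a <;> cases c.χ b <;> simp
  act_add a v w := by
    cases c.χ a <;> simp [add_comm]

theorem pow_v (c : Chr L) (p : ℕ) (x : SD (c.act p)) (n : ℕ) :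
    (x ^ n).v = (if c.χ x.r then (if Even n then 0 else 1) else (n : ZMod p)) * x.v := by
  induction n with
  | zero => simp [SD.one_v]
  | succ n ih =>
    rw [pow_succ', SD.mul_v, ih]
    simp only [act]
    cases c.χ x.r
    · simp [add_mul, add_comm]
    · by_cases h : Even n <;> simp [Nat.even_add_one, h]

/-- The weight of an element. -/
def w (p : ℕ) (b : Bool) (n : ℕ) : ℕ := if b = true ∨ p ∣ n then p else 1

theorem sum_SD (c : Chr L) [Fintype L] [DecidableEq L] (p : ℕ) [Fact p.Prime] (n : ℕ) (f : L → ℕ) :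
    (∑ g : SD (c.act p), if g ^ n = 1 then f g.r else 0) =
      ∑ l : L, if l ^ n = 1 then f l * w p (c.χ l) n else 0 := by
  rw [← (SD.equivProd (c.act p)).sum_comp, Fintype.sum_prod_type_right]
  refine Finset.sum_congr rfl fun l _ => ?_
  have h1 : ∀ v : ZMod p, ((SD.equivProd (c.act p)) (v, l)) ^ n = 1 ↔
      (l ^ n = 1 ∧ (if c.χ l then (if Even n then 0 else 1) else (n : ZMod p)) * v = 0) := by
    intro v
    rw [SD.ext_iff, SD.pow_r, pow_v, and_comm]
    rfl
  have h2 : ∀ v : ZMod p, ((SD.equivProd (c.act p)) (v, l)).r = l := fun _ => rfl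
  simp only [h1, h2]
  by_cases hl : l ^ n = 1
  · simp only [hl, true_and, if_true]
    by_cases hc : c.χ l = true
    · have := c.even_of_pow_eq_one hc hl
      simp [w, hc, this, mul_comm]
    · by_cases hp : p ∣ n
      · have : (n : ZMod p) = 0 := (ZMod.natCast_eq_zero_iff n p).mpr hp
        simp [w, hc, hp, this, mul_comm]
      · have : (n : ZMod p) ≠ 0 := fun h => hp ((ZMod.natCast_eq_zero_iff n p).mp h)
        simp [w, hc, hp, this]
  · simp [hl]

theorem pow_eq_one (c : Chr L) (p : ℕ) {n : ℕ} (hn : Even n) (hp : p ∣ n) (hL : ∀ l : L, l ^ n = 1)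
    (x : SD (c.act p)) : x ^ n = 1 := by
  ext
  · have : (n : ZMod p) = 0 := (ZMod.natCast_eq_zero_iff n p).mpr hp
    rw [pow_v]
    simp [hn, this, SD.one_v]
  · rw [SD.pow_r, hL]; rfl

end Chr

/-- `f` is the counting function (on the divisors of `84`) of a finite solvable group of exponent
dividing `84`. -/
def Real (f : ℕ → ℕ) : Prop :=
  ∃ (G : Type) (_ : Group G) (_ : Finite G), Group.IsSolvable G ∧ (∀ g : G, g ^ 84 = 1) ∧
    ∀ n, n ∣ 84 → e G n = f n

theorem Real.mul {f g : ℕ → ℕ} (hf : Real f) (hg : Real g) : Real fun n => f n * g n := by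
  obtain ⟨G, _, _, h1, h2, h3⟩ := hf
  obtain ⟨H, _, _, k1, k2, k3⟩ := hg
  refine ⟨G × H, inferInstance, inferInstance, inferInstance, fun x => ?_, fun n hn => ?_⟩
  · ext
    · simpa using h2 x.1
    · simpa using k2 x.2
  · rw [e_prod, h3 n hn, k3 n hn]

/-- The counting function of `(C₃ × C₃ × C₃ × C₇) ⋊ L`. -/
def F {L : Type} [Group L] [Fintype L] [DecidableEq L] (a b c d : Chr L) (n : ℕ) : ℕ :=
  ∑ l : L, if l ^ (n % 4) = 1 then
    Chr.w 7 (d.χ l) n * Chr.w 3 (c.χ l) n * Chr.w 3 (b.χ l) n * Chr.w 3 (a.χ l) n else 0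

theorem real_F {L : Type} [Group L] [Fintype L] [DecidableEq L] [Group.IsSolvable L]
    (hL : ∀ l : L, l ^ 4 = 1) (a b c d : Chr L) : Real (F a b c d) := by
  have : Fact (Nat.Prime 7) := ⟨by norm_num⟩
  have h84 : ∀ l : L, l ^ 84 = 1 := fun l => by
    rw [show 84 = 4 * 21 from rfl, pow_mul, hL, one_pow]
  refine ⟨SD ((((d.lift (a.act 3)).lift ((b.lift (a.act 3)).act 3)).lift
      (((c.lift (a.act 3)).lift ((b.lift (a.act 3)).act 3)).act 3)).act 7),
    inferInstance, inferInstance, inferInstance, ?_, fun n _ => ?_⟩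
  · refine Chr.pow_eq_one _ _ (by decide) (by decide) ?_
    refine Chr.pow_eq_one _ _ (by decide) (by decide) ?_
    refine Chr.pow_eq_one _ _ (by decide) (by decide) ?_
    exact Chr.pow_eq_one _ _ (by decide) (by decide) h84
  · rw [e_eq_sum]
    refine (Chr.sum_SD _ 7 n fun _ => 1).trans ?_
    refine (Chr.sum_SD ((c.lift (a.act 3)).lift ((b.lift (a.act 3)).act 3)) 3 n
      fun l => 1 * Chr.w 7 (d.χ l.r.r) n).trans ?_
    refine (Chr.sum_SD (b.lift (a.act 3)) 3 n
      fun l => 1 * Chr.w 7 (d.χ l.r) n * Chr.w 3 (c.χ l.r) n).trans ?_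
    refine (Chr.sum_SD a 3 n fun l =>
      1 * Chr.w 7 (d.χ l) n * Chr.w 3 (c.χ l) n * Chr.w 3 (b.χ l) n).trans ?_
    refine Finset.sum_congr rfl fun l _ => ?_
    rw [one_mul, ← pow_eq_pow_mod n (hL l)]

end CfsgLib.OrdType
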