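/-
The counting functions of `AΓL(1,8)` and `GL(3,2)`.
-/
import Cfsg.Agent.Lib.OrdType.Basic

set_option autoImplicit false

namespace CfsgLib.OrdType

open Finset
open scoped commutatorElement

/-- A computable order function for small orders. -/
def ordF {G : Type*} [Monoid G] [DecidableEq G] (g : G) : ℕ :=
  if g = 1 then 1 else if g ^ 2 = 1 then 2 else if g ^ 3 = 1 then 3 else if g ^ 4 = 1 then 4
    else if g ^ 6 = 1 then 6 else if g ^ 7 = 1 then 7 else 0

theorem orderOf_eq_ordF {G : Type*} [Monoid G] [DecidableEq G] (g : G) (h : ordF g ≠ 0) :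
    orderOf g = ordF g := by
  unfold ordF at h ⊢
  have h1 : g = 1 ↔ orderOf g = 1 := orderOf_eq_one_iff.symm
  have h2 : ∀ k, g ^ k = 1 ↔ orderOf g ∣ k := fun k => orderOf_dvd_iff_pow_eq_one.symm
  simp only [h1, h2] at h ⊢
  clear h1 h2
  generalize orderOf g = m at h ⊢
  split_ifs at h ⊢ with h1 h2 h3 h4 h6 h7
  · exact h1
  · have := Nat.le_of_dvd (by norm_num) h2
    interval_cases m <;> simp_all
  · have := Nat.le_of_dvd (by norm_num) h3
    interval_cases m <;> simp_all
  · have := Nat.le_of_dvd (by norm_num) h4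
    interval_cases m <;> simp_all
  · have := Nat.le_of_dvd (by norm_num) h6
    interval_cases m <;> simp_all
  · have := Nat.le_of_dvd (by norm_num) h7
    interval_cases m <;> simp_all
  · exact absurd rfl h

/-- The action defining `7 : 3`. -/
def act73 : Act (ZMod 7) (Multiplicative (ZMod 3)) where
  act j v := 2 ^ j.toAdd.val * v
  act_one := by decide
  act_mul := by decide
  act_add := by decide

/-- The field with eight elements, additively. -/
abbrev V8 := ZMod 2 × ZMod 2 × ZMod 2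

/-- Multiplication by the primitive element. -/
def mulW (x : V8) : V8 := (x.2.2, x.1 + x.2.2, x.2.1)

/-- The Frobenius map. -/
def frobW (x : V8) : V8 := (x.1, x.2.2, x.2.1 + x.2.2)

/-- The action defining `AΓL(1,8)`. -/
def actG : Act V8 (SD act73) where
  act l v := mulW^[l.v.val] (frobW^[l.r.toAdd.val] v)
  act_one := by decide +kernel
  act_mul := by decide +kernel
  act_add := by decide +kernel

/-- The orders of the elements of `AΓL(1,8)`. -/
def sG : Multiset ℕ := Multiset.replicate 1 1 + Multiset.replicate 7 2 + Multiset.replicate 56 3 +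
  Multiset.replicate 56 6 + Multiset.replicate 48 7

theorem map_ordF_G : (univ : Finset (SD actG)).val.map ordF = sG := by decide +kernel

theorem ordF_mem_G (g : SD actG) : ordF g ∈ sG := by
  rw [← map_ordF_G]
  exact Multiset.mem_map_of_mem _ (Finset.mem_univ g)

theorem real_G : Real fun n => sG.countP (· ∣ n) := by
  have h : ∀ d ∈ sG, d ≠ 0 ∧ d ∣ 84 := by decide +kernel
  refine ⟨SD actG, inferInstance, inferInstance, inferInstance, fun g => ?_, fun n _ => ?_⟩
  · rw [← orderOf_dvd_iff_pow_eq_one, orderOf_eq_ordF g (h _ (ordF_mem_G g)).1]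
    exact (h _ (ordF_mem_G g)).2
  · change _ = sG.countP (· ∣ n)
    rw [← card_eq_countP ordF sG map_ordF_G]
    refine Nat.card_congr (Equiv.subtypeEquivRight fun g => ?_)
    rw [← orderOf_dvd_iff_pow_eq_one, orderOf_eq_ordF g (h _ (ordF_mem_G g)).1]

/-- Three by three matrices over the field with two elements. -/
@[ext] structure M3 where
  a : ZMod 2
  b : ZMod 2
  c : ZMod 2
  d : ZMod 2
  e : ZMod 2
  f : ZMod 2
  g : ZMod 2
  h : ZMod 2
  i : ZMod 2
  deriving DecidableEq

namespace M3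

/-- The product of matrices. -/
def mul (x y : M3) : M3 :=
  ⟨x.a * y.a + x.b * y.d + x.c * y.g, x.a * y.b + x.b * y.e + x.c * y.h,
    x.a * y.c + x.b * y.f + x.c * y.i,
    x.d * y.a + x.e * y.d + x.f * y.g, x.d * y.b + x.e * y.e + x.f * y.h,
    x.d * y.c + x.e * y.f + x.f * y.i,
    x.g * y.a + x.h * y.d + x.i * y.g, x.g * y.b + x.h * y.e + x.i * y.h,
    x.g * y.c + x.h * y.f + x.i * y.i⟩

instance : Monoid M3 where
  mul := mul
  one := ⟨1, 0, 0, 0, 1, 0, 0, 0, 1⟩
  mul_assoc x y z := by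
    change mul (mul x y) z = mul x (mul y z)
    ext <;> simp only [mul] <;> ring
  one_mul x := by
    change mul ⟨1, 0, 0, 0, 1, 0, 0, 0, 1⟩ x = x
    ext <;> simp [mul]
  mul_one x := by
    change mul x ⟨1, 0, 0, 0, 1, 0, 0, 0, 1⟩ = x
    ext <;> simp [mul]

/-- The determinant. -/
def det (x : M3) : ZMod 2 :=
  x.a * x.e * x.i + x.b * x.f * x.g + x.c * x.d * x.h - x.c * x.e * x.g - x.b * x.d * x.i
    - x.a * x.f * x.h

theorem det_mul (x y : M3) : det (x * y) = det x * det y := by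
  change det (mul x y) = _
  simp only [det, mul]
  ring

theorem det_one : det 1 = 1 := by decide

/-- Coordinates. -/
def equiv : V8 × V8 × V8 ≃ M3 :=
  ⟨fun x => ⟨x.1.1, x.1.2.1, x.1.2.2, x.2.1.1, x.2.1.2.1, x.2.1.2.2, x.2.2.1, x.2.2.2.1, x.2.2.2.2⟩,
    fun x => ((x.a, x.b, x.c), (x.d, x.e, x.f), (x.g, x.h, x.i)), fun _ => rfl, fun _ => rfl⟩

instance : Fintype M3 := Fintype.ofEquiv _ equiv

/-- The order of an invertible matrix, `100` for a singular one. -/
def o (x : M3) : ℕ := if det x = 0 then 100 else ordF x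

/-- The values of `o`. -/
def s : Multiset ℕ := Multiset.replicate 1 1 + Multiset.replicate 21 2 + Multiset.replicate 56 3 +
  Multiset.replicate 42 4 + Multiset.replicate 48 7 + Multiset.replicate 344 100

theorem map_o : (univ : Finset M3).val.map o = s := by decide +kernel

theorem o_mem (x : M3) : o x ∈ s := by
  rw [← map_o]
  exact Multiset.mem_map_of_mem _ (Finset.mem_univ x)

theorem det_ne_zero {x : M3} (hx : IsUnit x) : det x ≠ 0 := by
  obtain ⟨y, hy⟩ := hx.exists_right_inv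
  intro h
  have := det_mul x y
  rw [hy, det_one, h, zero_mul] at this
  exact one_ne_zero this

theorem pow_eq_one_iff (x : M3) {n : ℕ} (hn : n ∣ 84) : x ^ n = 1 ↔ o x ∣ n := by
  have h : ∀ d ∈ s, d ≠ 0 := by decide +kernel
  have hn0 : n ≠ 0 := by rintro rfl; simp at hn
  by_cases hx : det x = 0
  · refine iff_of_false (fun h1 => det_ne_zero (IsUnit.of_pow_eq_one h1 hn0) hx) fun h1 => ?_
    have h2 : o x = 100 := if_pos hx
    rw [h2] at h1
    exact absurd (h1.trans hn) (by norm_num)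
  · have h2 : o x = ordF x := if_neg hx
    rw [← orderOf_dvd_iff_pow_eq_one, orderOf_eq_ordF x (h2 ▸ h _ (o_mem x)), h2]

theorem units_pow (u : M3ˣ) : u ^ 84 = 1 := by
  have h : ∀ d ∈ s, d ≠ 100 → d ∣ 84 := by decide +kernel
  have h0 : ∀ d ∈ s, d ≠ 0 := by decide +kernel
  ext1
  rw [Units.val_pow_eq_pow_val, Units.val_one, pow_eq_one_iff _ dvd_rfl]
  refine h _ (o_mem _) ?_
  have h2 : o (u : M3) = ordF (u : M3) := if_neg (det_ne_zero u.isUnit)
  rw [h2]
  unfold ordF
  split_ifs <;> norm_num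

theorem e_units {n : ℕ} (hn : n ∣ 84) : OrdType.e M3ˣ n = s.countP (· ∣ n) := by
  have hn0 : n ≠ 0 := by rintro rfl; simp at hn
  rw [← card_eq_countP o s map_o]
  refine Nat.card_congr ⟨fun u => ⟨u.1, (pow_eq_one_iff _ hn).mp ?_⟩,
    fun x => ⟨Units.ofPowEqOne x.1 n ((pow_eq_one_iff _ hn).mpr x.2) hn0, ?_⟩, fun u => ?_, fun x => ?_⟩
  · rw [← Units.val_pow_eq_pow_val, u.2, Units.val_one]
  · exact Units.pow_ofPowEqOne _ _
  · ext1
    ext1
    rfl
  · rfl

theorem not_solvable : ¬ Group.IsSolvable M3ˣ := by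
  let x : M3ˣ := ⟨⟨0, 0, 1, 0, 1, 0, 1, 0, 0⟩, ⟨0, 0, 1, 0, 1, 0, 1, 0, 0⟩, by decide, by decide⟩
  let g : M3ˣ := ⟨⟨0, 0, 1, 0, 1, 0, 1, 1, 0⟩, ⟨0, 1, 1, 0, 1, 0, 1, 0, 0⟩, by decide, by decide⟩
  let h : M3ˣ := ⟨⟨0, 0, 1, 0, 1, 1, 1, 0, 0⟩, ⟨0, 0, 1, 1, 1, 0, 1, 0, 0⟩, by decide, by decide⟩
  have key : x = ⁅g * x * g⁻¹, h * x * h⁻¹⁆ := by
    ext1
    decide +kernel
  refine not_isSolvable_of_mem_derivedSeries (g := x) (by decide +kernel) fun n => ?_
  induction n with
  | zero => exact Subgroup.mem_top _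
  | succ n ih =>
    rw [key, derivedSeries_succ]
    exact Subgroup.commutator_mem_commutator ((derivedSeries_normal _ _).conj_mem x ih g)
      ((derivedSeries_normal _ _).conj_mem x ih h)

end M3

end CfsgLib.OrdType
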